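import Mathlib
import Cfsg.Prelude.Def_Transfer
import Cfsg.Agent.Transfer.Residual
import Cfsg.Agent.Transfer.Fusion
import Cfsg.Agent.Transfer.Frobenius

/-!
An induction principle for fusion in a Sylow subgroup `P` (a weak Alperin theorem): fusion is generated by
`P` and by the `p'`-elements of normalisers of subgroups of `P`.
-/
set_option autoImplicit false

open scoped Pointwise

namespace CfsgLib.Transfer

variable {p : ℕ} {G : Type*} [Group G] [Finite G] [hp : Fact p.Prime]

attribute [local instance] pResidual_normal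

/-- A relation preserved by `P` and by the `p'`-elements normalising a subgroup `D` of `P` is preserved by all
elements of `O^p(N(D))`. -/
theorem rel_of_mem_pResidual_normalizer {D : Subgroup G} {rel : G → G → Prop}
    (hrefl : ∀ x ∈ D, rel x x) (hsymm : ∀ x ∈ D, ∀ y ∈ D, rel x y → rel y x)
    (htrans : ∀ x ∈ D, ∀ y ∈ D, ∀ z ∈ D, rel x y → rel y z → rel x z)
    (hloc : ∀ n ∈ Subgroup.normalizer (D : Set G), (orderOf n).Coprime p → ∀ x ∈ D, rel x (n * x * n⁻¹))
    {n : Subgroup.normalizer (D : Set G)} (hn : n ∈ Cfsg.pResidual p (Subgroup.normalizer (D : Set G))) :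
    ∀ x ∈ D, rel x ((n : G) * x * (n : G)⁻¹) := by
  have hcl : ∀ m : Subgroup.normalizer (D : Set G), ∀ x ∈ D, (m : G) * x * (m : G)⁻¹ ∈ D := fun m x hx =>
    (Subgroup.mem_normalizer_iff.mp m.2 x).mp hx
  induction hn using Subgroup.closure_induction with
  | mem a ha => exact hloc a a.2 (by rwa [Subgroup.orderOf_coe])
  | one => intro x hx; simpa using hrefl x hx
  | mul a b _ _ iha ihb =>
    intro x hx
    have h := htrans x hx _ (hcl b x hx) _ (hcl a _ (hcl b x hx)) (ihb x hx) (iha _ (hcl b x hx))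
    simpa [mul_assoc] using h
  | inv a _ iha =>
    intro x hx
    have hy := hcl a⁻¹ x hx
    have h := hsymm _ hy _ (hcl a _ hy) (iha _ hy)
    simpa [mul_assoc] using h

/-- Fusion in `P` preserves every equivalence relation on `P` which is preserved by `P` and by the
`p'`-elements of the normalisers of the subgroups of `P`. -/
theorem fusion_induction (P : Sylow p G) {rel : G → G → Prop}
    (hrefl : ∀ x ∈ (P : Subgroup G), rel x x)
    (hsymm : ∀ x ∈ (P : Subgroup G), ∀ y ∈ (P : Subgroup G), rel x y → rel y x)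
    (htrans : ∀ x ∈ (P : Subgroup G), ∀ y ∈ (P : Subgroup G), ∀ z ∈ (P : Subgroup G), rel x y → rel y z → rel x z)
    (hP : ∀ s ∈ (P : Subgroup G), ∀ x ∈ (P : Subgroup G), rel x (s * x * s⁻¹))
    (hloc : ∀ D : Subgroup G, D ≤ (P : Subgroup G) → ∀ n ∈ Subgroup.normalizer (D : Set G),
      (orderOf n).Coprime p → ∀ x ∈ D, rel x (n * x * n⁻¹)) :
    ∀ g : G, ∀ x ∈ (P : Subgroup G), g * x * g⁻¹ ∈ (P : Subgroup G) → rel x (g * x * g⁻¹) := by
  suffices H : ∀ (k : ℕ) (g : G), Nat.card (P : Subgroup G) -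
      Nat.card ((P : Subgroup G) ⊓ (g⁻¹ • P : Sylow p G) : Subgroup G) ≤ k →
      ∀ x ∈ (P : Subgroup G), g * x * g⁻¹ ∈ (P : Subgroup G) → rel x (g * x * g⁻¹) by
    exact fun g => H _ g le_rfl
  intro k
  induction k using Nat.strong_induction_on with
  | _ k ih =>
  intro g hk x hx hgx
  set Q : Sylow p G := g⁻¹ • P with hQdef
  set D : Subgroup G := (P : Subgroup G) ⊓ Q with hD
  have hxD : x ∈ D := ⟨hx, mem_smul_sylow_iff.mpr (by rw [inv_inv]; exact hgx)⟩
  have hres : ∀ (E : Subgroup G), E ≤ (P : Subgroup G) → ∀ n : Subgroup.normalizer (E : Set G),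
      n ∈ Cfsg.pResidual p (Subgroup.normalizer (E : Set G)) → ∀ y ∈ E, rel y ((n : G) * y * (n : G)⁻¹) :=
    fun E hE n hn => rel_of_mem_pResidual_normalizer (fun y hy => hrefl y (hE hy))
      (fun y hy z hz => hsymm y (hE hy) z (hE hz)) (fun y hy z hz w hw => htrans y (hE hy) z (hE hz) w (hE hw))
      (hloc E hE) hn
  by_cases hle : (P : Subgroup G) ≤ Q
  · have hgn : g ∈ Subgroup.normalizer ((P : Subgroup G) : Set G) := by
      refine inv_mem_iff.mp (Sylow.smul_eq_iff_mem_normalizer.mp (?_ : g⁻¹ • P = P))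
      exact Sylow.ext (P.3 Q.isPGroup' hle)
    obtain ⟨S, hS⟩ := (P.isPGroup'.comap_of_injective (Subgroup.normalizer ((P : Subgroup G) : Set G)).subtype
      (Subgroup.subtype_injective _)).exists_le_sylow
    have hSP : ∀ s ∈ S, ((s : Subgroup.normalizer ((P : Subgroup G) : Set G)) : G) ∈ (P : Subgroup G) := by
      intro s hs
      have hle' : (P : Subgroup G) ≤ (S : Subgroup _).map (Subgroup.normalizer ((P : Subgroup G) : Set G)).subtype :=
        fun y hy => ⟨⟨y, Subgroup.le_normalizer hy⟩, hS (by exact hy), rfl⟩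
      have he := P.3 (S.isPGroup'.map _) hle'
      exact he.le ⟨s, hs, rfl⟩
    obtain ⟨r, hr, s, hs, hrs⟩ := Subgroup.mem_sup_of_normal_left.mp
      (show (⟨g, hgn⟩ : Subgroup.normalizer ((P : Subgroup G) : Set G)) ∈
        Cfsg.pResidual p _ ⊔ (S : Subgroup _) by rw [pResidual_sup_sylow]; trivial)
    have he : g = (r : G) * (s : G) := (congrArg Subtype.val hrs).symm
    have hy : (s : G) * x * (s : G)⁻¹ ∈ (P : Subgroup G) :=
      mul_mem (mul_mem (hSP s hs) hx) (inv_mem (hSP s hs))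
    have h := htrans x hx _ hy _ ((Subgroup.mem_normalizer_iff.mp r.2 _).mp hy) (hP _ (hSP s hs) x hx)
      (hres _ le_rfl r hr _ hy)
    rw [he]
    simpa [mul_assoc] using h
  have hDP : D < (P : Subgroup G) := lt_of_le_of_ne inf_le_left fun he => hle (he.ge.trans inf_le_right)
  have hDQ : D < (Q : Subgroup G) := lt_of_le_of_ne inf_le_right fun he =>
    hle (le_of_eq (Q.3 P.isPGroup' (he.ge.trans inf_le_left)))
  set N := Subgroup.normalizer (D : Set G) with hN
  obtain ⟨S, hS⟩ := ((P.isPGroup'.to_le (inf_le_right : N ⊓ P ≤ P)).comap_of_injective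
    N.subtype N.subtype_injective).exists_le_sylow
  obtain ⟨T, hT⟩ := ((Q.isPGroup'.to_le (inf_le_right : N ⊓ Q ≤ Q)).comap_of_injective
    N.subtype N.subtype_injective).exists_le_sylow
  obtain ⟨n, hn⟩ := MulAction.exists_smul_eq N S T
  obtain ⟨r, hr, s, hs, rfl⟩ := Subgroup.mem_sup_of_normal_left.mp
    (show n ∈ Cfsg.pResidual p N ⊔ (S : Subgroup N) by rw [pResidual_sup_sylow]; trivial)
  have hrS : r • S = T := by
    rw [← hn, mul_smul, Sylow.smul_eq_iff_mem_normalizer.mpr (Subgroup.le_normalizer hs)]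
  obtain ⟨R, hR⟩ := (S.isPGroup'.map N.subtype).exists_le_sylow
  obtain ⟨a, rfl⟩ := MulAction.exists_smul_eq G P R
  have hltA : D < (P : Subgroup G) ⊓ (a • P : Sylow p G) := (inf_normalizer_gt P hDP).trans_le
    (le_inf inf_le_right fun y hy => hR ⟨⟨y, hy.1⟩, hS (by exact hy), rfl⟩)
  have hltB : D < (Q : Subgroup G) ⊓ (((r : G) * a) • P : Sylow p G) := (inf_normalizer_gt Q hDQ).trans_le
    (le_inf inf_le_right fun y hy => by
      have hyT : (⟨y, hy.1⟩ : N) ∈ (r • S : Sylow p N) := hrS ▸ hT (by exact hy)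
      have h := hR ⟨_, mem_smul_sylow_iff.mp hyT, rfl⟩
      rw [mul_smul]
      exact mem_smul_sylow_iff.mpr (by simp at h; exact h))
  have hcard : ∀ E : Subgroup G, D < E → Nat.card D < Nat.card E := fun E hE =>
    lt_of_le_of_ne (Subgroup.card_le_of_le hE.le) fun e => hE.ne (Subgroup.eq_of_le_of_card_ge hE.le e.ge)
  have hle1 : ∀ R' : Sylow p G, Nat.card ((P : Subgroup G) ⊓ R' : Subgroup G) ≤ Nat.card (P : Subgroup G) :=
    fun R' => Subgroup.card_le_of_le inf_le_left
  -- the two conjugations with larger intersections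
  have hA : ∀ y ∈ (P : Subgroup G), a⁻¹ * y * a⁻¹⁻¹ ∈ (P : Subgroup G) → rel y (a⁻¹ * y * a⁻¹⁻¹) := by
    have h1 := hcard _ hltA
    have h2 := hle1 (a • P)
    refine ih _ ?_ a⁻¹ le_rfl
    rw [inv_inv]
    omega
  have hB : ∀ y ∈ (P : Subgroup G), (g * r * a) * y * (g * r * a)⁻¹ ∈ (P : Subgroup G) →
      rel y ((g * r * a) * y * (g * r * a)⁻¹) := by
    have h1 := hcard _ hltB
    have h2 := hle1 ((g * r * a)⁻¹ • P)
    have hmap : Nat.card ((Q : Subgroup G) ⊓ (((r : G) * a) • P : Sylow p G) : Subgroup G) =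
        Nat.card ((P : Subgroup G) ⊓ ((g * r * a)⁻¹ • P : Sylow p G) : Subgroup G) := by
      have e : ((Q : Subgroup G) ⊓ (((r : G) * a) • P : Sylow p G) : Subgroup G) =
          ((P : Subgroup G) ⊓ ((g * r * a)⁻¹ • P : Sylow p G) : Subgroup G).map
            (MulAut.conj ((r : G) * a)).toMonoidHom := by
        ext y
        constructor
        · rintro ⟨hy1, hy2⟩
          refine ⟨((r : G) * a)⁻¹ * y * ((r : G) * a), ⟨mem_smul_sylow_iff.mp hy2, ?_⟩, by simp [mul_assoc]⟩
          refine mem_smul_sylow_iff.mpr ?_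
          have := mem_smul_sylow_iff.mp hy1
          simp [mul_assoc] at this ⊢
          exact this
        · rintro ⟨z, ⟨hz1, hz2⟩, rfl⟩
          refine ⟨mem_smul_sylow_iff.mpr ?_, conj_mem_smul_sylow.mpr hz1⟩
          have := mem_smul_sylow_iff.mp hz2
          simp [mul_assoc] at this ⊢
          exact this
      rw [e, Subgroup.card_map_of_injective (MulAut.conj ((r : G) * a)).injective]
    refine ih _ ?_ (g * r * a) le_rfl
    omega
  have hx1 : (r : G)⁻¹ * x * (r : G) ∈ D := by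
    simpa using (Subgroup.mem_normalizer_iff.mp (N.inv_mem r.2) x).mp hxD
  have e1 : rel x ((r : G)⁻¹ * x * (r : G)) := by
    simpa using hres D hDP.le r⁻¹ (inv_mem hr) x hxD
  have hx2 : a⁻¹ * ((r : G)⁻¹ * x * (r : G)) * a⁻¹⁻¹ ∈ (P : Subgroup G) := by
    rw [inv_inv]; exact mem_smul_sylow_iff.mp (hltA.le hx1).2
  have e2 := hA _ hx1.1 hx2
  have he : g * r * a * (a⁻¹ * ((r : G)⁻¹ * x * (r : G)) * a⁻¹⁻¹) * (g * r * a)⁻¹ = g * x * g⁻¹ := by group
  have e3 := hB _ hx2 (by rw [he]; exact hgx)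
  rw [he] at e3
  exact htrans x hx _ hx1.1 _ hgx e1 (htrans _ hx1.1 _ hx2 _ hgx e2 e3)

end CfsgLib.Transfer
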